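import Cfsg.Agent.Lib.Helper82.S4415.MonDefs

/-!
# S4415, package [MON-3]: degree 3, `R` is a four-group
-/

set_option autoImplicit false

namespace Cfsg.Agent.Lib.Helper34.S4415

open Cfsg.Agent.Lib.Helper78.S4415 Cfsg.Agent.Lib.Helper82.S4415

universe u

section sp

variable {G : Type u} [Group G] {n : ℕ} {σ : G →* Equiv.Perm (Fin n)} {ε : G → Fin n → ZMod 3}

theorem zmod3_sign_mul_self {a : ZMod 3} (h : a = 1 ∨ a = -1) : a * a = 1 := by
  rcases h with rfl | rfl <;> decide

theorem sp_eps_one (h : SP σ ε) (i : Fin n) : ε 1 i = 1 := by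
  have h1 := h.2.1 1 1 i
  rw [mul_one, map_one, Equiv.Perm.one_apply] at h1
  rcases h.1 1 i with h2 | h2
  · exact h2
  · rw [h2] at h1; exact absurd h1 (by decide)

/-- on the kernel of `σ` the signs multiply -/
theorem sp_eps_mul_of_ker (h : SP σ ε) {x : G} (hx : σ x = 1) (y : G) (i : Fin n) :
    ε (y * x) i = ε x i * ε y i := by
  rw [h.2.1 y x i, hx, Equiv.Perm.one_apply]

theorem sp_eps_inv_of_ker (h : SP σ ε) {x : G} (hx : σ x = 1) (i : Fin n) :
    ε x⁻¹ i = ε x i := by
  have h1 := sp_eps_mul_of_ker h hx x⁻¹ i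
  rw [inv_mul_cancel, sp_eps_one h] at h1
  have h2 := zmod3_sign_mul_self (h.1 x i)
  rcases h.1 x i with h3 | h3 <;> rcases h.1 x⁻¹ i with h4 | h4 <;> rw [h3, h4] at h1 ⊢ <;>
    first | rfl | exact absurd h1 (by decide)

/-- extensionality on the kernel of `σ` -/
theorem sp_ext_of_ker (h : SP σ ε) {x y : G} (hx : σ x = 1) (hy : σ y = 1)
    (hxy : ∀ i, ε x i = ε y i) : x = y := by
  have h1 : x⁻¹ * y = 1 := by
    apply h.2.2
    · rw [map_mul, map_inv, hx, hy, inv_one, one_mul]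
    · intro i
      rw [sp_eps_mul_of_ker h hy, sp_eps_inv_of_ker h hx, hxy i]
      exact zmod3_sign_mul_self (h.1 y i)
  exact inv_mul_eq_one.mp h1

end sp

/-- the even sign vectors of length 3 -/
def evenSigns3 : Finset (Fin 3 → ZMod 3) :=
  Finset.univ.filter fun d => (∀ i, d i = 1 ∨ d i = -1) ∧ ∏ i, d i = 1

theorem card_evenSigns3 : evenSigns3.card = 4 := by decide

/-- [MON-3] -/
theorem pkgMon3 : PkgMon3.{u} := by
  intro G _ _ R Q σ ε hSP hσ hprod hQR hQ4
  have hcard : Nat.card ↥R = 4 := by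
    apply le_antisymm
    · let f : ↥R → ↥evenSigns3 := fun r => ⟨ε (r : G), by
        unfold evenSigns3
        rw [Finset.mem_filter]
        exact ⟨Finset.mem_univ _, fun i => hSP.1 _ i, hprod _ r.2⟩⟩
      have hf : Function.Injective f := by
        intro r r' hrr'
        have h1 : ε (r : G) = ε (r' : G) := congrArg Subtype.val hrr'
        exact Subtype.ext (sp_ext_of_ker hSP (hσ _ r.2) (hσ _ r'.2) (fun i => congrFun h1 i))
      have := Nat.card_le_card_of_injective f hf
      have h4 : Nat.card ↥evenSigns3 = 4 := by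
        rw [Nat.card_eq_fintype_card, Fintype.card_coe, card_evenSigns3]
      rwa [h4] at this
    · rw [← hQ4]
      exact Subgroup.card_le_of_le hQR
  refine ⟨⟨⟨⟨?_⟩⟩, ?_⟩, hcard⟩
  · intro a b
    apply Subtype.ext
    apply sp_ext_of_ker hSP
    · rw [Subgroup.coe_mul, map_mul, hσ _ a.2, hσ _ b.2, one_mul]
    · rw [Subgroup.coe_mul, map_mul, hσ _ a.2, hσ _ b.2, one_mul]
    · intro i
      rw [Subgroup.coe_mul, Subgroup.coe_mul, sp_eps_mul_of_ker hSP (hσ _ b.2),
        sp_eps_mul_of_ker hSP (hσ _ a.2), mul_comm]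
  · intro a ha
    apply sp_ext_of_ker hSP
    · rw [map_pow, hσ _ ha, one_pow]
    · exact map_one σ
    · intro i
      rw [pow_two, sp_eps_mul_of_ker hSP (hσ _ ha), sp_eps_one hSP]
      exact zmod3_sign_mul_self (hSP.1 a i)

end Cfsg.Agent.Lib.Helper34.S4415
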