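import Cfsg.Agent.Lib.Helper82.S4415.MonDefs

/-!
# S4415, package [MON-WF]: weight facts from a frame of a four-group `Q' ≤ N`
-/

set_option autoImplicit false

namespace Cfsg.Agent.Lib.Helper34.S4415

open Cfsg.Agent.Lib.Helper78.S4415 Cfsg.Agent.Lib.Helper82.S4415

universe u v

theorem zmod3_add_self {a : ZMod 3} (h : a + a = 0) : a = 0 := by
  revert a; decide

theorem zmod3_cases (a : ZMod 3) : a = 0 ∨ a = 1 ∨ a = -1 := by
  revert a; decide

theorem mod3_add_self {V : Type v} [AddCommGroup V] [Module (ZMod 3) V] {c : V}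
    (h : c + c = 0) : c = 0 := by
  have h3 : (3 : ZMod 3) • c = 0 := by
    rw [show (3 : ZMod 3) = 0 from by decide, zero_smul]
  have h4 : (3 : ZMod 3) • c = c + c + c := by module
  rw [h4, h, zero_add] at h3
  exact h3

/-- [MON-WF] -/
theorem pkgMonWF : PkgMonWF.{u, v} := by
  intro G _ V _ _ ρ N b Q' hcomm hQN hF
  obtain ⟨q₁, q₂, w₁, w₂, w₃, hq1, hq2, -, -, -, -, -, -, -, hb1, hb2, hb3, hw1, h11, h12, h13,
    h21, h22, h23, hdec, huniq⟩ := hF
  have hq1N : q₁ ∈ N := hQN hq1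
  have hq2N : q₂ ∈ N := hQN hq2
  -- the key analysis
  have key : ∀ u : V, ∃ (c : V) (a₁ a₂ a₃ : ZMod 3),
      u = c + a₁ • w₁ + a₂ • w₂ + a₃ • w₃ ∧ ρ b c = c ∧
      (ρ q₁ u = u → a₂ = 0 ∧ a₃ = 0) ∧ (ρ q₁ u = -u → c = 0 ∧ a₁ = 0) ∧
      (ρ q₂ u = u → a₁ = 0 ∧ a₃ = 0) ∧ (ρ q₂ u = -u → c = 0 ∧ a₂ = 0) := by
    intro u
    obtain ⟨c, a₁, a₂, a₃, hu, hc1, hc2, hcb⟩ := hdec u
    have hq1u : ρ q₁ u = c + a₁ • w₁ - a₂ • w₂ - a₃ • w₃ := by
      rw [hu]
      simp only [map_add, map_smul, hc1, h11, h12, h13]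
      module
    have hq2u : ρ q₂ u = c - a₁ • w₁ + a₂ • w₂ - a₃ • w₃ := by
      rw [hu]
      simp only [map_add, map_smul, hc2, h21, h22, h23]
      module
    refine ⟨c, a₁, a₂, a₃, hu, hcb, ?_, ?_, ?_, ?_⟩
    · intro h
      have := huniq 0 0 (a₂ + a₂) (a₃ + a₃) (map_zero _) (map_zero _) (by
        have h0 : u - ρ q₁ u = 0 := by rw [h, sub_self]
        rw [hq1u] at h0
        refine Eq.trans ?_ h0
        rw [hu]
        module)
      exact ⟨zmod3_add_self this.2.2.1, zmod3_add_self this.2.2.2⟩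
    · intro h
      have := huniq (c + c) (a₁ + a₁) 0 0 (by rw [map_add, hc1]) (by rw [map_add, hc2]) (by
        have h0 : u + ρ q₁ u = 0 := by rw [h, add_neg_cancel]
        rw [hq1u] at h0
        refine Eq.trans ?_ h0
        rw [hu]
        module)
      exact ⟨mod3_add_self this.1, zmod3_add_self this.2.1⟩
    · intro h
      have := huniq 0 (a₁ + a₁) 0 (a₃ + a₃) (map_zero _) (map_zero _) (by
        have h0 : u - ρ q₂ u = 0 := by rw [h, sub_self]
        rw [hq2u] at h0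
        refine Eq.trans ?_ h0
        rw [hu]
        module)
      exact ⟨zmod3_add_self this.2.1, zmod3_add_self this.2.2.2⟩
    · intro h
      have := huniq (c + c) 0 (a₂ + a₂) 0 (by rw [map_add, hc1]) (by rw [map_add, hc2]) (by
        have h0 : u + ρ q₂ u = 0 := by rw [h, add_neg_cancel]
        rw [hq2u] at h0
        refine Eq.trans ?_ h0
        rw [hu]
        module)
      exact ⟨mod3_add_self this.1, zmod3_add_self this.2.2.1⟩
  -- a vector with signs `(+,-)` is a multiple of `w₁`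
  have line : ∀ u : V, ρ q₁ u = u → ρ q₂ u = -u → ∃ a : ZMod 3, u = a • w₁ := by
    intro u h1 h2
    obtain ⟨c, a₁, a₂, a₃, hu, -, hA, -, -, hD⟩ := key u
    obtain ⟨ha2, ha3⟩ := hA h1
    obtain ⟨hc, -⟩ := hD h2
    refine ⟨a₁, ?_⟩
    rw [hu, hc, ha2, ha3]
    module
  refine ⟨w₁, hw1, ?_, ?_, ?_, ?_⟩
  · intro x hx
    have hx1 : ρ q₁ (ρ x w₁) = ρ x w₁ := by
      have : ρ q₁ (ρ x w₁) = ρ x (ρ q₁ w₁) := by
        rw [← Module.End.mul_apply, ← map_mul, hcomm q₁ hq1N x hx, map_mul, Module.End.mul_apply]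
      rw [this, h11]
    have hx2 : ρ q₂ (ρ x w₁) = -ρ x w₁ := by
      have : ρ q₂ (ρ x w₁) = ρ x (ρ q₂ w₁) := by
        rw [← Module.End.mul_apply, ← map_mul, hcomm q₂ hq2N x hx, map_mul, Module.End.mul_apply]
      rw [this, h21, map_neg]
    obtain ⟨a, ha⟩ := line _ hx1 hx2
    rcases zmod3_cases a with rfl | rfl | rfl
    · exfalso
      apply hw1
      have h0 : ρ x w₁ = 0 := by rw [ha, zero_smul]
      have : ρ x⁻¹ (ρ x w₁) = w₁ := by
        rw [← Module.End.mul_apply, ← map_mul, inv_mul_cancel, map_one, Module.End.one_apply]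
      rw [← this, h0, map_zero]
    · left; rw [ha, one_smul]
    · right; rw [ha, neg_smul, one_smul]
  · intro u hu
    exact line u ((hu q₁ hq1N).1 h11) ((hu q₂ hq2N).2 h21)
  · rw [hb1]
    constructor
    · intro h
      have := huniq 0 1 (-1) 0 (map_zero _) (map_zero _) (by rw [h]; module)
      exact one_ne_zero this.2.1
    · intro h
      have := huniq 0 1 1 0 (map_zero _) (map_zero _) (by rw [h]; module)
      exact one_ne_zero this.2.1
  · intro u hu
    obtain ⟨c, a₁, a₂, a₃, hu', hcb, hA, hB, hC, hD⟩ := key u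
    rcases hu q₁ hq1N with h1 | h1 <;> rcases hu q₂ hq2N with h2 | h2
    · obtain ⟨ha2, ha3⟩ := hA h1
      obtain ⟨ha1, -⟩ := hC h2
      right; right; right
      have : u = c := by rw [hu', ha1, ha2, ha3]; module
      rw [this, hcb]
    · exact Or.inl (line u h1 h2)
    · obtain ⟨hc, ha1⟩ := hB h1
      obtain ⟨-, ha3⟩ := hC h2
      right; left
      refine ⟨a₂, ?_⟩
      rw [hb1, hu', hc, ha1, ha3]; module
    · obtain ⟨hc, ha1⟩ := hB h1
      obtain ⟨-, ha2⟩ := hD h2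
      right; right; left
      refine ⟨a₃, ?_⟩
      rw [hb1, hb2, hu', hc, ha1, ha2]; module

end Cfsg.Agent.Lib.Helper34.S4415
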